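import Cfsg.Agent.Spec53.Sp63.Data
import Cfsg.Agent.Spec53.PSpPrimeGraph

/-!
The prime graph of `PSp6(3)`.
-/

set_option autoImplicit false

namespace CfsgLib.Spec53.Sp63

open Matrix CfsgLib.Classical.Symp

/-- Reduction of a polynomial product modulo `X⁶ = 2 + X² + X³ + X⁴`. -/
def polyMul (a b : List (ZMod 3)) : List (ZMod 3) :=
  let c : ℕ → ZMod 3 := fun k => ((List.range (k + 1)).map fun i => a.getD i 0 * b.getD (k - i) 0).sum
  let e10 := c 10
  let e9 := c 9
  let e8 := c 8 + e10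
  let e7 := c 7 + e10 + e9
  let e6 := c 6 + e10 + e9 + e8
  [c 0 + 2 * e6, c 1 + 2 * e7, c 2 + 2 * e8 + e6, c 3 + 2 * e9 + e7 + e6,
    c 4 + 2 * e10 + e8 + e7 + e6, c 5 + e9 + e8 + e7]

/-- The four square roots of `±1` modulo the characteristic polynomial. -/
def roots : List (List (ZMod 3)) :=
  [[1, 0, 0, 0, 0, 0], [2, 0, 0, 0, 0, 0], [1, 0, 2, 1, 1, 1], [2, 0, 1, 2, 2, 2]]

theorem polyMul_roots : ∀ a b c d e f : ZMod 3,
    (polyMul [a, b, c, d, e, f] [a, b, c, d, e, f] = [1, 0, 0, 0, 0, 0] ∨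
      polyMul [a, b, c, d, e, f] [a, b, c, d, e, f] = [2, 0, 0, 0, 0, 0]) →
    [a, b, c, d, e, f] ∈ roots := by
  decide +kernel

/-- A polynomial in the element of order 13. -/
def evalX (a : List (ZMod 3)) : M6 :=
  a.getD 0 0 • 1 + a.getD 1 0 • x13 + a.getD 2 0 • x13 ^ 2 + a.getD 3 0 • x13 ^ 3 +
    a.getD 4 0 • x13 ^ 4 + a.getD 5 0 • x13 ^ 5

theorem x13_six : x13 ^ 6 = 2 • 1 + x13 ^ 2 + x13 ^ 3 + x13 ^ 4 := by decide +kernel

/-- The Krylov matrix. -/
def krylov : M6 := Matrix.of fun r i => (x13 ^ (i : ℕ)) r 0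

theorem krylov_inv : krylovInv * krylov = 1 ∧ krylov * krylovInv = 1 := by decide +kernel

theorem root_cases : ∀ a ∈ roots, evalX a * form6 * (evalX a)ᵀ = form6 →
    evalX a = 1 ∨ evalX a = -1 := by
  decide +kernel

/-- Commutant of the element of order 13. -/
theorem eq_evalX {Y : M6} (h : Y * x13 = x13 * Y) : ∃ a : Fin 6 → ZMod 3,
    Y = evalX [a 0, a 1, a 2, a 3, a 4, a 5] ∧ ∀ b : Fin 6 → ZMod 3,
      Y = evalX [b 0, b 1, b 2, b 3, b 4, b 5] → b = a := by
  have hk : ∀ (Z : M6), Z * x13 = x13 * Z → ∀ r i,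
      (Z * krylov) r i = (x13 ^ (i : ℕ) * Z) r 0 := by
    intro Z hZ r i
    have hc : Commute Z (x13 ^ (i : ℕ)) := (show Commute Z x13 from hZ).pow_right _
    rw [← hc.eq]
    simp [Matrix.mul_apply, krylov]
  have hev : ∀ a : List (ZMod 3), evalX a * x13 = x13 * evalX a := by
    intro a
    have : Commute (evalX a) x13 := by
      unfold evalX
      refine (((((Commute.one_left x13).smul_left _).add_left ((Commute.refl x13).smul_left _)).add_left
        (((Commute.refl x13).pow_left 2).smul_left _)).add_left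
        (((Commute.refl x13).pow_left 3).smul_left _)).add_left
        (((Commute.refl x13).pow_left 4).smul_left _) |>.add_left
        (((Commute.refl x13).pow_left 5).smul_left _)
    exact this.eq
  have hcol : ∀ b : Fin 6 → ZMod 3, ∀ r,
      evalX [b 0, b 1, b 2, b 3, b 4, b 5] r 0 = (krylov *ᵥ b) r := by
    intro b r
    simp [evalX, krylov, Matrix.mulVec, dotProduct, Fin.sum_univ_six, Matrix.add_apply]
    ring
  have hdet : ∀ Z Z' : M6, Z * x13 = x13 * Z → Z' * x13 = x13 * Z' →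
      (∀ r, Z r 0 = Z' r 0) → Z = Z' := by
    intro Z Z' hZ hZ' he
    have : Z * krylov = Z' * krylov := by
      ext r i
      rw [hk Z hZ, hk Z' hZ', Matrix.mul_apply, Matrix.mul_apply]
      simp only [he]
    calc Z = Z * krylov * krylovInv := by rw [mul_assoc, krylov_inv.2, mul_one]
      _ = Z' := by rw [this, mul_assoc, krylov_inv.2, mul_one]
  refine ⟨krylovInv *ᵥ (fun r => Y r 0), hdet _ _ h (hev _) fun r => ?_, fun b hb => ?_⟩
  · rw [hcol, Matrix.mulVec_mulVec, krylov_inv.2, Matrix.one_mulVec]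
  · have : (fun r => Y r 0) = krylov *ᵥ b := funext fun r => by rw [hb, hcol]
    rw [this, Matrix.mulVec_mulVec, krylov_inv.1, Matrix.one_mulVec]

/-- The polynomial with given coefficients. -/
noncomputable def polyOf (a : List (ZMod 3)) : Polynomial (ZMod 3) :=
  Polynomial.C (a.getD 0 0) + Polynomial.C (a.getD 1 0) * Polynomial.X +
    Polynomial.C (a.getD 2 0) * Polynomial.X ^ 2 + Polynomial.C (a.getD 3 0) * Polynomial.X ^ 3 +
    Polynomial.C (a.getD 4 0) * Polynomial.X ^ 4 + Polynomial.C (a.getD 5 0) * Polynomial.X ^ 5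

theorem aeval_polyOf (a : List (ZMod 3)) : Polynomial.aeval x13 (polyOf a) = evalX a := by
  simp [polyOf, evalX, Algebra.smul_def]

theorem evalX_mul (a b c d e f : ZMod 3) : evalX [a, b, c, d, e, f] * evalX [a, b, c, d, e, f] =
    evalX (polyMul [a, b, c, d, e, f] [a, b, c, d, e, f]) := by
  have key : ∃ S : Polynomial (ZMod 3), polyOf [a, b, c, d, e, f] * polyOf [a, b, c, d, e, f] =
      polyOf (polyMul [a, b, c, d, e, f] [a, b, c, d, e, f]) +
        (Polynomial.X ^ 6 - (Polynomial.C 2 + Polynomial.X ^ 2 + Polynomial.X ^ 3 + Polynomial.X ^ 4)) *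
          S := by
    let e10 := f * f
    let e9 := 2 * e * f
    let e8 := 2 * d * f + e * e + e10
    let e7 := 2 * c * f + 2 * d * e + e10 + e9
    let e6 := 2 * b * f + 2 * c * e + d * d + e10 + e9 + e8
    refine ⟨Polynomial.C e6 + Polynomial.C e7 * Polynomial.X + Polynomial.C e8 * Polynomial.X ^ 2 +
      Polynomial.C e9 * Polynomial.X ^ 3 + Polynomial.C e10 * Polynomial.X ^ 4, ?_⟩
    simp [polyOf, polyMul, List.range_succ, e6, e7, e8, e9, e10, Polynomial.C_add, Polynomial.C_mul, map_ofNat]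
    ring
  obtain ⟨S, hS⟩ := key
  have h := congrArg (Polynomial.aeval x13) hS
  rw [map_mul, map_add, map_mul (Polynomial.aeval x13) _ S, aeval_polyOf, aeval_polyOf] at h
  rw [h, add_eq_left]
  have h0 : Polynomial.aeval x13 (Polynomial.X ^ 6 - (Polynomial.C 2 + Polynomial.X ^ 2 +
      Polynomial.X ^ 3 + Polynomial.X ^ 4) : Polynomial (ZMod 3)) = 0 := by
    have e : (algebraMap (ZMod 3) M6) 2 = 2 • 1 := by
      rw [map_ofNat, nsmul_one]
      norm_num
    simp only [map_sub, map_add, map_pow, Polynomial.aeval_X, Polynomial.aeval_C, e, x13_six, sub_self]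
  rw [h0, zero_mul]

/-- An element squaring to a scalar sign and commuting with the element of order 13 is a sign. -/
theorem sign_of_commute {Y : M6} (hsp : Y * form6 * Yᵀ = form6) (h : Y * x13 = x13 * Y)
    (h2 : Y * Y = 1 ∨ Y * Y = -1) : Y = 1 ∨ Y = -1 := by
  obtain ⟨a, ha, -⟩ := eq_evalX h
  have hYY : (Y * Y) * x13 = x13 * (Y * Y) := by rw [mul_assoc, h, ← mul_assoc, h, mul_assoc]
  obtain ⟨c, -, hu⟩ := eq_evalX hYY
  have hsq : Y * Y = evalX (polyMul [a 0, a 1, a 2, a 3, a 4, a 5] [a 0, a 1, a 2, a 3, a 4, a 5]) := by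
    rw [ha, evalX_mul]
  obtain ⟨p0, p1, p2, p3, p4, p5, hp⟩ : ∃ p0 p1 p2 p3 p4 p5 : ZMod 3,
      polyMul [a 0, a 1, a 2, a 3, a 4, a 5] [a 0, a 1, a 2, a 3, a 4, a 5] =
        [p0, p1, p2, p3, p4, p5] := ⟨_, _, _, _, _, _, rfl⟩
  rw [hp] at hsq
  have hb := hu ![p0, p1, p2, p3, p4, p5] hsq
  have hsign : polyMul [a 0, a 1, a 2, a 3, a 4, a 5] [a 0, a 1, a 2, a 3, a 4, a 5] =
      [1, 0, 0, 0, 0, 0] ∨
      polyMul [a 0, a 1, a 2, a 3, a 4, a 5] [a 0, a 1, a 2, a 3, a 4, a 5] = [2, 0, 0, 0, 0, 0] := by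
    rw [hp]
    rcases h2 with e | e
    · have e' := hu ![1, 0, 0, 0, 0, 0] (e.trans (show (1 : M6) = evalX [1, 0, 0, 0, 0, 0] by
        decide +kernel))
      have := hb.trans e'.symm
      left
      simpa [funext_iff, Fin.forall_fin_succ] using this
    · have e' := hu ![2, 0, 0, 0, 0, 0] (e.trans (show (-1 : M6) = evalX [2, 0, 0, 0, 0, 0] by
        decide +kernel))
      have := hb.trans e'.symm
      right
      simpa [funext_iff, Fin.forall_fin_succ] using this
  have hr := polyMul_roots _ _ _ _ _ _ hsign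
  have := root_cases _ hr (ha ▸ hsp)
  rwa [← ha] at this

/-! ### Transfer to the symplectic group -/

/-- Indices. -/
abbrev J6 := Fin 3 ⊕ Fin 3

/-- Six by six matrices as block matrices. -/
def toJ : M6 ≃ₐ[ZMod 3] Matrix J6 J6 (ZMod 3) :=
  Matrix.reindexAlgEquiv (ZMod 3) (ZMod 3) (finSumFinEquiv (m := 3) (n := 3)).symm

theorem toJ_form : toJ form6 = Matrix.J (Fin 3) (ZMod 3) := by
  rw [← sub_eq_zero]
  decide +kernel

theorem toJ_transpose (A : M6) : toJ Aᵀ = (toJ A)ᵀ := rfl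

theorem mem_iff (A : M6) : toJ A ∈ Matrix.symplecticGroup (Fin 3) (ZMod 3) ↔
    A * form6 * Aᵀ = form6 := by
  rw [SymplecticGroup.mem_iff, ← toJ_form, ← toJ_transpose, ← map_mul, ← map_mul,
    toJ.injective.eq_iff]

local notation "S63" => Matrix.symplecticGroup (Fin 3) (ZMod 3)

theorem two_ne_zero_three : (2 : ZMod 3) ≠ 0 := by decide

theorem card_S63 : Nat.card S63 = 3 ^ 9 * (8 * 80 * 728) := by
  haveI : Fact (Nat.Prime 3) := ⟨Nat.prime_three⟩
  rw [card_symplecticGroup, ZMod.card]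
  simp [Finset.prod_range_succ]

theorem center_cases {z : S63} (h : z ∈ Subgroup.center S63) :
    (z : Matrix J6 J6 (ZMod 3)) = 1 ∨ (z : Matrix J6 J6 (ZMod 3)) = -1 := by
  haveI : Fact (Nat.Prime 3) := ⟨Nat.prime_three⟩
  rcases mem_center_iff.1 h with e | e <;> simp [e]

theorem sp_mem_center {z : S63} (h : (z : Matrix J6 J6 (ZMod 3)) = 1 ∨
    (z : Matrix J6 J6 (ZMod 3)) = -1) : z ∈ Subgroup.center S63 := by
  rw [Subgroup.mem_center_iff]
  intro w
  refine Subtype.ext ?_
  show (w : Matrix J6 J6 (ZMod 3)) * z = z * w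
  rcases h with e | e <;> rw [e] <;> simp

/-- The lift of an explicit matrix. -/
theorem exists_psp_orderOf {A : M6} (p q : ℕ) (hp : p.Prime) (hq : q.Prime)
    (hA : A * form6 * Aᵀ = form6) (h : A ^ (p * q) = 1 ∨ A ^ (p * q) = -1)
    (h1 : A ^ p ≠ 1 ∧ A ^ p ≠ -1) (h2 : A ^ q ≠ 1 ∧ A ^ q ≠ -1) :
    ∃ x : Cfsg.PSp 3 (ZMod 3), orderOf x = p * q := by
  haveI : Fact (Nat.Prime 3) := ⟨Nat.prime_three⟩
  let g : S63 := ⟨toJ A, (mem_iff A).2 hA⟩
  have hval : ∀ n, ((g ^ n : S63) : Matrix J6 J6 (ZMod 3)) = toJ (A ^ n) := fun n => by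
    rw [SubmonoidClass.coe_pow, map_pow]
  have hmk : ∀ n, (QuotientGroup.mk g : Cfsg.PSp 3 (ZMod 3)) ^ n = 1 ↔ A ^ n = 1 ∨ A ^ n = -1 := by
    intro n
    rw [← QuotientGroup.mk_pow, QuotientGroup.eq_one_iff]
    constructor
    · intro hn
      rcases center_cases hn with e | e <;> rw [hval] at e
      · exact Or.inl (toJ.injective (e.trans (map_one toJ).symm))
      · exact Or.inr (toJ.injective (e.trans (by rw [map_neg, map_one])))
    · intro hn
      refine sp_mem_center ?_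
      rcases hn with e | e
      · exact Or.inl (by rw [hval, e, map_one])
      · exact Or.inr (by rw [hval, e, map_neg, map_one])
  refine ⟨QuotientGroup.mk g, ?_⟩
  have hd := orderOf_dvd_of_pow_eq_one ((hmk _).2 h)
  obtain ⟨a, b, ha, hb, hab⟩ := exists_dvd_and_dvd_of_dvd_mul hd
  rcases (Nat.dvd_prime hp).1 ha with rfl | rfl
  · refine absurd ((hmk q).1 ?_) (by tauto)
    rw [← orderOf_dvd_iff_pow_eq_one, hab, one_mul]; exact hb
  rcases (Nat.dvd_prime hq).1 hb with rfl | rfl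
  · refine absurd ((hmk a).1 ?_) (by tauto)
    rw [← orderOf_dvd_iff_pow_eq_one, hab, mul_one]
  · exact hab

theorem x13_facts : x13 * form6 * x13ᵀ = form6 ∧ x13 ^ 13 = 1 ∧ x13 ≠ 1 := by decide +kernel

/-- No element of order 26. -/
theorem no_twentysix (x : Cfsg.PSp 3 (ZMod 3)) : orderOf x ≠ 26 := by
  intro hx
  haveI : Fact (Nat.Prime 3) := ⟨Nat.prime_three⟩
  haveI : Fact (Nat.Prime 13) := ⟨by norm_num⟩
  obtain ⟨hform, h13, hne⟩ := x13_facts
  let c : S63 := ⟨toJ x13, (mem_iff _).2 hform⟩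
  have hc : orderOf c = 13 := orderOf_eq_prime
    (Subtype.ext (by rw [SubmonoidClass.coe_pow, ← map_pow, h13, map_one]; rfl))
    (fun e => hne (toJ.injective ((congrArg Subtype.val e).trans (map_one toJ).symm)))
  have hcop : Nat.Coprime 13 (Nat.card (Subgroup.center S63)) :=
    coprime_center_Sp (Or.inl (by decide))
  have hx2 : orderOf (x ^ 2) = 13 := by
    rw [orderOf_pow' x two_ne_zero, hx]; rfl
  obtain ⟨u, hu, hux, huo⟩ := CfsgLib.CommutingOrderP.exists_lift_pow (Subgroup.center S63) hcop _ hx2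
  rw [card_center_of_two_ne_zero (by norm_num) two_ne_zero_three] at hux huo
  obtain ⟨y, hy⟩ := QuotientGroup.mk_surjective (x ^ 13)
  have hcomm : y * u = u * y := by
    have hz : y * u * y⁻¹ * u⁻¹ ∈ Subgroup.center S63 := by
      rw [← QuotientGroup.eq_one_iff]
      simp only [QuotientGroup.mk_mul, QuotientGroup.mk_inv, hy, hux]
      group
    set z := y * u * y⁻¹ * u⁻¹ with hzdef
    have hzu : y * u * y⁻¹ = z * u := by rw [hzdef]; group
    have hc2 : Commute z u := ((Subgroup.mem_center_iff.1 hz u).symm : z * u = u * z)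
    have h1 : z ^ 13 = 1 := by
      have := congrArg (fun w : S63 => w ^ 13) hzu
      simp only [conj_pow, hu, mul_one, mul_inv_cancel, hc2.mul_pow] at this
      exact this.symm
    have hz1 : z = 1 := by
      refine orderOf_eq_one_iff.1 (Nat.dvd_one.1 ?_)
      rw [← hcop.gcd_eq_one]
      exact Nat.dvd_gcd (orderOf_dvd_of_pow_eq_one h1)
        (Subgroup.orderOf_dvd_natCard _ hz)
    rw [hz1, one_mul, mul_inv_eq_iff_eq_mul] at hzu
    exact hzu
  have hu13 : orderOf u = 13 := orderOf_eq_prime hu (fun e => by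
    rw [e] at hux
    rw [← hux, QuotientGroup.mk_one, orderOf_one] at huo
    omega)
  have hsyl : ∀ k : Subgroup S63, Nat.card k = 13 →
      ∃ S : Sylow 13 S63, (S : Subgroup S63) = k := fun k hk => by
    refine ⟨(IsPGroup.of_card (n := 1) (by rw [hk, pow_one])).toSylow ?_, rfl⟩
    intro hd
    have h1 := k.card_mul_index
    rw [card_S63, hk] at h1
    omega
  obtain ⟨S, hS⟩ := hsyl (Subgroup.zpowers u) (by rw [Nat.card_zpowers, hu13])
  obtain ⟨T, hT⟩ := hsyl (Subgroup.zpowers c) (by rw [Nat.card_zpowers, hc])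
  obtain ⟨a, ha⟩ := MulAction.exists_smul_eq S63 T S
  have hmem : a * c * a⁻¹ ∈ Subgroup.zpowers u := by
    rw [← hS, ← ha, Sylow.coe_subgroup_smul, hT]
    exact ⟨c, Subgroup.mem_zpowers c, rfl⟩
  obtain ⟨k, hk⟩ := Subgroup.mem_zpowers_iff.1 hmem
  have hyc : a⁻¹ * y * a * c = c * (a⁻¹ * y * a) := by
    have h1 : y * (a * c * a⁻¹) = a * c * a⁻¹ * y := by
      rw [← hk]; exact (Commute.zpow_right (show Commute y u from hcomm) k).eq
    calc a⁻¹ * y * a * c = a⁻¹ * (y * (a * c * a⁻¹)) * a := by group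
      _ = a⁻¹ * (a * c * a⁻¹ * y) * a := by rw [h1]
      _ = _ := by group
  set y' := a⁻¹ * y * a with hy'
  have hyy : y * y ∈ Subgroup.center S63 := by
    rw [← QuotientGroup.eq_one_iff, QuotientGroup.mk_mul, hy, ← pow_add,
      ← orderOf_dvd_iff_pow_eq_one, hx]
  have hy2 : (y' * y' : S63) = y * y := by
    calc y' * y' = a⁻¹ * (y * y) * a := by rw [hy']; group
      _ = _ := by rw [mul_assoc, ← Subgroup.mem_center_iff.1 hyy a, inv_mul_cancel_left]
  have hsgn : (y' : Matrix J6 J6 (ZMod 3)) = 1 ∨ (y' : Matrix J6 J6 (ZMod 3)) = -1 := by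
    have hY := toJ.apply_symm_apply (y' : Matrix J6 J6 (ZMod 3))
    set Y := toJ.symm (y' : Matrix J6 J6 (ZMod 3)) with hYdef
    rcases sign_of_commute (Y := Y) ((mem_iff Y).1 (hY ▸ y'.2))
        (toJ.injective (by rw [map_mul, map_mul, hY]; exact congrArg Subtype.val hyc))
        (by
          rcases center_cases (hy2.symm ▸ hyy) with e | e
          · exact Or.inl (toJ.injective (by rw [map_mul, hY, map_one]; exact e))
          · exact Or.inr (toJ.injective (by rw [map_mul, hY, map_neg, map_one]; exact e)))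
      with e | e
    · exact Or.inl (by rw [← hY, e, map_one])
    · exact Or.inr (by rw [← hY, e, map_neg, map_one])
  have hyc' : y ∈ Subgroup.center S63 := by
    have h := sp_mem_center hsgn
    have := (inferInstance : (Subgroup.center S63).Normal).conj_mem _ h a
    rwa [show a * y' * a⁻¹ = y by rw [hy']; group] at this
  rw [← QuotientGroup.eq_one_iff, hy, ← orderOf_dvd_iff_pow_eq_one, hx] at hyc'
  omega

theorem card_psp_primes {p : ℕ} (hp : p.Prime) :
    p ∣ Nat.card (Cfsg.PSp 3 (ZMod 3)) ↔ p ∈ ({2, 3, 5, 7, 13} : Finset ℕ) := by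
  haveI : Fact (Nat.Prime 3) := ⟨Nat.prime_three⟩
  have h := Subgroup.card_eq_card_quotient_mul_card_subgroup (Subgroup.center S63)
  rw [card_S63, card_center_of_two_ne_zero (by norm_num) two_ne_zero_three] at h
  have hc : Nat.card (Cfsg.PSp 3 (ZMod 3)) = 3 ^ 9 * 2 ^ 9 * 5 * 7 * 13 :=
    Nat.eq_of_mul_eq_mul_right (by norm_num : 0 < 2) (h.symm.trans (by norm_num))
  rw [hc]
  constructor
  · intro hd
    simp only [Finset.mem_insert, Finset.mem_singleton]
    rcases hp.dvd_mul.1 hd with h | h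
    · rcases hp.dvd_mul.1 h with h | h
      · rcases hp.dvd_mul.1 h with h | h
        · rcases hp.dvd_mul.1 h with h | h
          · exact Or.inr (Or.inl ((Nat.prime_dvd_prime_iff_eq hp Nat.prime_three).1 (hp.dvd_of_dvd_pow h)))
          · exact Or.inl ((Nat.prime_dvd_prime_iff_eq hp Nat.prime_two).1 (hp.dvd_of_dvd_pow h))
        · exact Or.inr (Or.inr (Or.inl ((Nat.prime_dvd_prime_iff_eq hp Nat.prime_five).1 h)))
      · exact Or.inr (Or.inr (Or.inr (Or.inl ((Nat.prime_dvd_prime_iff_eq hp (by norm_num)).1 h))))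
    · exact Or.inr (Or.inr (Or.inr (Or.inr ((Nat.prime_dvd_prime_iff_eq hp (by norm_num)).1 h))))
  · intro hm
    fin_cases hm <;> norm_num

theorem orderOf_three_zmod :
    orderOf ((3 : ℕ) : ZMod 5) = 4 ∧ orderOf ((3 : ℕ) : ZMod 7) = 6 ∧
      orderOf ((3 : ℕ) : ZMod 13) = 3 := by
  refine ⟨?_, ?_, ?_⟩ <;> rw [orderOf_eq_iff (by norm_num)] <;>
    exact ⟨by decide, fun m hm hm0 => by interval_cases m <;> decide⟩

/-- The edges of the prime graph of `PSp6(3)`. -/
theorem edges {p q : ℕ} (hp : p.Prime) (hq : q.Prime) (hpq : p ≠ q) :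
    (∃ x : Cfsg.PSp 3 (ZMod 3), orderOf x = p * q) ↔ p * q ∈ ({6, 10, 14, 15} : Finset ℕ) := by
  haveI : Fact (Nat.Prime 3) := ⟨Nat.prime_three⟩
  haveI : Fact (Nat.Prime 5) := ⟨Nat.prime_five⟩
  haveI : Fact (Nat.Prime 7) := ⟨by norm_num⟩
  haveI : Fact (Nat.Prime 13) := ⟨by norm_num⟩
  constructor
  · rintro ⟨x, hx⟩
    have hd : p * q ∣ Nat.card (Cfsg.PSp 3 (ZMod 3)) := hx ▸ orderOf_dvd_natCard x
    have hP := (card_psp_primes hp).1 ((dvd_mul_right p q).trans hd)
    have hQ := (card_psp_primes hq).1 ((dvd_mul_left q p).trans hd)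
    have e3 : Fintype.card (ZMod 3) = 3 := ZMod.card 3
    have hk5 : (4 : ℕ) = orderOf ((Fintype.card (ZMod 3) : ℕ) : ZMod 5) := by
      rw [e3, orderOf_three_zmod.1]
    have hk7 : (6 : ℕ) = orderOf ((Fintype.card (ZMod 3) : ℕ) : ZMod 7) := by
      rw [e3, orderOf_three_zmod.2.1]
    have hk13 : (3 : ℕ) = orderOf ((Fintype.card (ZMod 3) : ℕ) : ZMod 13) := by
      rw [e3, orderOf_three_zmod.2.2]
    have no : ∀ d : ℕ, Odd d → (∀ g : S63, orderOf g ≠ d) → orderOf x ≠ d := fun d hd h e => by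
      obtain ⟨g, hg⟩ := exists_sp_of_psp (coprime_center_Sp (Or.inl hd)) x e
      exact h g hg
    have n21 := no (7 * 3) (by decide) (not_orderOf_mul_char (by norm_num) (by norm_num) hk7
      (Or.inr ⟨by decide, rfl⟩) le_rfl)
    have n39 := no (13 * 3) (by decide) (not_orderOf_mul_char (by norm_num) (by norm_num) hk13
      (Or.inl ⟨by decide, rfl⟩) le_rfl)
    have n35 := no (5 * 7) (by decide) (not_orderOf_mul (by norm_num) (by norm_num) (by norm_num)
      (natCast_ne_zero_of_prime_ne (p := 3) (by norm_num) (by norm_num))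
      (natCast_ne_zero_of_prime_ne (p := 3) (by norm_num) (by norm_num)) hk5 hk7 (Or.inr ⟨by decide, (rfl : 2 * 2 = 4)⟩)
      (Or.inr ⟨by decide, (rfl : 2 * 3 = 6)⟩) (by norm_num) (by norm_num)
      (fun ⟨t, _, ht⟩ => by omega))
    have n65 := no (5 * 13) (by decide) (not_orderOf_mul (by norm_num) (by norm_num) (by norm_num)
      (natCast_ne_zero_of_prime_ne (p := 3) (by norm_num) (by norm_num))
      (natCast_ne_zero_of_prime_ne (p := 3) (by norm_num) (by norm_num)) hk5 hk13 (Or.inr ⟨by decide, (rfl : 2 * 2 = 4)⟩)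
      (Or.inl ⟨by decide, (rfl : 3 = 3)⟩) (by norm_num) (by norm_num)
      (fun ⟨t, _, ht⟩ => by omega))
    have n91 := no (13 * 7) (by decide) (not_orderOf_mul (by norm_num) (by norm_num) (by norm_num)
      (natCast_ne_zero_of_prime_ne (p := 3) (by norm_num) (by norm_num))
      (natCast_ne_zero_of_prime_ne (p := 3) (by norm_num) (by norm_num)) hk13 hk7 (Or.inl ⟨by decide, (rfl : 3 = 3)⟩)
      (Or.inr ⟨by decide, (rfl : 2 * 3 = 6)⟩) (by norm_num) (by norm_num)
      (fun ⟨t, ht', ht⟩ => by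
        have : t = 2 := by omega
        subst this
        exact absurd ht' (by decide)))
    have n26 := no_twentysix x
    simp only [Finset.mem_insert, Finset.mem_singleton] at hP hQ ⊢
    rcases hP with rfl | rfl | rfl | rfl | rfl <;> rcases hQ with rfl | rfl | rfl | rfl | rfl <;> omega
  · intro h
    simp only [Finset.mem_insert, Finset.mem_singleton] at h
    rcases h with h | h | h | h <;> rw [h]
    · exact exists_psp_orderOf (A := g6) 2 3 Nat.prime_two Nat.prime_three (by decide +kernel)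
        (by decide +kernel) (by decide +kernel) (by decide +kernel)
    · exact exists_psp_orderOf (A := g10) 2 5 Nat.prime_two Nat.prime_five (by decide +kernel)
        (by decide +kernel) (by decide +kernel) (by decide +kernel)
    · exact exists_psp_orderOf (A := g14) 2 7 Nat.prime_two (by norm_num) (by decide +kernel)
        (by decide +kernel) (by decide +kernel) (by decide +kernel)
    · exact exists_psp_orderOf (A := g15) 3 5 Nat.prime_three Nat.prime_five (by decide +kernel)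
        (by decide +kernel) (by decide +kernel) (by decide +kernel)

end CfsgLib.Spec53.Sp63
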