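import Mathlib

/-!
Explicit elements of `Sp6(3)`.
-/

set_option autoImplicit false

namespace CfsgLib.Spec53.Sp63

open Matrix

/-- Six by six matrices over the field with three elements. -/
abbrev M6 := Matrix (Fin 6) (Fin 6) (ZMod 3)

/-- Element of order 13. -/
def x13 : M6 := !![0, 1, 2, 1, 1, 2; 2, 1, 2, 1, 1, 0; 1, 2, 1, 2, 0, 1; 0, 0, 0, 1, 1, 0; 1, 2, 0, 2, 2, 2; 2, 1, 1, 2, 0, 1]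

/-- Inverse of its Krylov matrix at the first unit vector. -/
def krylovInv : M6 := !![1, 2, 0, 0, 1, 2; 0, 1, 2, 2, 2, 2; 0, 1, 0, 1, 2, 1; 0, 1, 1, 0, 1, 1; 0, 0, 2, 0, 1, 0; 0, 2, 1, 0, 1, 0]

/-- Projective order 6. -/
def g6 : M6 := !![0, 1, 2, 0, 0, 1; 1, 0, 1, 0, 0, 2; 0, 0, 1, 2, 1, 0; 1, 1, 0, 0, 1, 0; 1, 1, 0, 1, 0, 0; 0, 0, 0, 2, 1, 1]

/-- Projective order 10. -/
def g10 : M6 := !![2, 2, 1, 1, 2, 1; 0, 1, 1, 0, 2, 2; 2, 0, 1, 0, 1, 1; 1, 0, 2, 1, 1, 0; 2, 1, 2, 1, 0, 1; 0, 2, 1, 0, 2, 1]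

/-- Projective order 14. -/
def g14 : M6 := !![1, 0, 2, 0, 0, 1; 2, 2, 2, 0, 2, 1; 2, 1, 0, 2, 0, 2; 0, 0, 2, 0, 1, 0; 1, 0, 0, 0, 2, 0; 1, 0, 0, 0, 0, 0]

/-- Projective order 15. -/
def g15 : M6 := !![0, 0, 1, 0, 0, 2; 2, 1, 1, 0, 0, 2; 0, 1, 1, 2, 2, 2; 2, 1, 0, 0, 2, 1; 0, 0, 1, 2, 0, 2; 0, 1, 1, 0, 0, 2]

/-- The form. -/
def form6 : M6 := !![0,0,0,2,0,0; 0,0,0,0,2,0; 0,0,0,0,0,2; 1,0,0,0,0,0; 0,1,0,0,0,0; 0,0,1,0,0,0]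

end CfsgLib.Spec53.Sp63
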